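import Cfsg.Agent.SLPres.Induct
import Cfsg.Agent.Schur.Basic

/-!
# Central extensions of `SL_n`, `n ≥ 3`, split

Lifts of commuting transvections commute, the commutator of lifts gives canonical lifts of all
transvections, and these satisfy Steinberg's relations.  The exceptions are `(3,2)`, `(3,4)`, `(4,2)`.
-/

set_option autoImplicit false
set_option linter.style.haveILetI false
set_option linter.unusedSectionVars false

namespace CfsgLib.Schur.SLMult

open Matrix Matrix.SpecialLinearGroup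
open scoped commutatorElement

universe u v w

variable {ι : Type w} [Fintype ι] [DecidableEq ι] {F : Type u} [Field F]

/-- A transvection, `1` on the diagonal. -/
def T (i j : ι) (t : F) : SpecialLinearGroup ι F :=
  if h : i = j then 1 else transvection h t

theorem T_smul {i j : ι} (h : i ≠ j) (t : F) (z : ι → F) (k : ι) :
    (T i j t • z) k = z k + if k = i then t * z j else 0 := by
  rw [T, dif_neg h]; exact CfsgLib.SLn.transvection_smul_apply h t z k

theorem T_add {i j : ι} (h : i ≠ j) (t u : F) : T i j t * T i j u = T i j (t + u) := by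
  refine CfsgLib.SLn.ext_smul fun z => funext fun k => ?_
  simp only [mul_smul, T_smul h, h.symm, if_false]
  split_ifs <;> ring

theorem T_zero {i j : ι} (h : i ≠ j) : T i j (0 : F) = 1 := by
  rw [T, dif_neg h, transvection_coeff_zero]

theorem T_comm {i j k l : ι} (hij : i ≠ j) (hkl : k ≠ l) (hil : i ≠ l) (hjk : j ≠ k) (t u : F) :
    Commute (T i j t) (T k l u) := by
  refine CfsgLib.SLn.ext_smul fun z => funext fun a => ?_
  simp only [mul_smul, T_smul hij, T_smul hkl, hil, hjk, Ne.symm hil, Ne.symm hjk, if_false]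
  split_ifs <;> ring

theorem T_triple {i j l : ι} (hij : i ≠ j) (hjl : j ≠ l) (hil : i ≠ l) (t u : F) :
    ⁅T i j t, T j l u⁆ = T i l (t * u) := by
  rw [T, T, T, dif_neg hij, dif_neg hjl, dif_neg hil]
  exact CfsgLib.SLn.commutator_transvection hij hjl hil t u

/-- A diagonal element with entries `x`, `x⁻¹`. -/
noncomputable def Dg {a b : ι} (h : a ≠ b) (x : Fˣ) : SpecialLinearGroup ι F :=
  diag2n h (x : F) x.ne_zero

theorem Dg_conj {a b i j : ι} (h : a ≠ b) (x : Fˣ) (hij : i ≠ j) (t : F) :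
    Dg h x * T i j t * (Dg h x)⁻¹ =
      T i j ((if i = a then (x : F) else if i = b then (x : F)⁻¹ else 1) * t /
        (if j = a then (x : F) else if j = b then (x : F)⁻¹ else 1)) := by
  rw [mul_inv_eq_iff_eq_mul]
  refine CfsgLib.SLn.ext_smul fun z => funext fun k => ?_
  have hx : (x : F) ≠ 0 := x.ne_zero
  simp only [mul_smul, Dg, T_smul hij, CfsgLib.SLn.diag2n_smul_apply]
  by_cases hk : k = i
  · subst hk
    simp only [if_true]
    split_ifs <;> field_simp <;> ring
  · simp [hk]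

/-- The element exchanging the basis vectors of `a` and `b` up to sign. -/
def swp (a b : ι) : SpecialLinearGroup ι F := T a b 1 * T b a (-1) * T a b 1

theorem swp_smul {a b : ι} (h : a ≠ b) (z : ι → F) (k : ι) :
    ((swp a b : SpecialLinearGroup ι F) • z) k = if k = a then z b else if k = b then -z a else z k := by
  simp only [swp, mul_smul, T_smul h, T_smul h.symm]
  by_cases h1 : k = a
  · subst h1; simp [h, h.symm]
  by_cases h2 : k = b
  · subst h2; simp [h, h.symm]
  · simp [h1, h2]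

theorem swp_conj {i j k l : ι} (hij : i ≠ j) (hik : i ≠ k) (hil : i ≠ l) (hjk : j ≠ k) (hjl : j ≠ l)
    (hkl : k ≠ l) (t : F) :
    swp i k * swp j l * T i j t * (swp i k * swp j l : SpecialLinearGroup ι F)⁻¹ = T k l t ∧
    swp i k * swp j l * T k l t * (swp i k * swp j l : SpecialLinearGroup ι F)⁻¹ = T i j t := by
  constructor <;>
  · rw [mul_inv_eq_iff_eq_mul]
    refine CfsgLib.SLn.ext_smul fun z => funext fun a => ?_
    simp only [mul_smul, swp_smul hik, swp_smul hjl, T_smul hij, T_smul hkl]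
    simp only [hij, hik, hil, hjk, hjl, hkl, hij.symm, hik.symm, hil.symm, hjk.symm, hjl.symm,
      hkl.symm, if_false, if_true]
    by_cases a1 : a = i
    · subst a1; simp [hij, hik, hil]; try ring
    by_cases a2 : a = j
    · subst a2; simp [hij.symm, hjk, hjl]; try ring
    by_cases a3 : a = k
    · subst a3; simp [hik.symm, hjk.symm, hkl]; try ring
    by_cases a4 : a = l
    · subst a4; simp [hil.symm, hjl.symm, hkl.symm]; try ring
    · simp [a1, a2, a3, a4]

theorem exists_ne₂ (hn : 3 ≤ Fintype.card ι) (i l : ι) : ∃ m, m ≠ i ∧ m ≠ l := by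
  by_contra hcon
  push Not at hcon
  have h1 : (Finset.univ : Finset ι) ⊆ {i, l} := fun m _ => by
    by_cases h : m = i
    · simp [h]
    · simp [hcon m h]
  have := (Finset.card_le_card h1).trans Finset.card_le_two
  rw [Finset.card_univ] at this
  omega

theorem exists_ne₃ (hn : 4 ≤ Fintype.card ι) (i j l : ι) : ∃ m, m ≠ i ∧ m ≠ j ∧ m ≠ l := by
  by_contra hcon
  push Not at hcon
  have h1 : (Finset.univ : Finset ι) ⊆ {i, j, l} := fun m _ => by
    by_cases h : m = i
    · simp [h]
    · by_cases h' : m = j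
      · simp [h']
      · simp [hcon m h h']
  have := (Finset.card_le_card h1).trans Finset.card_le_three
  rw [Finset.card_univ] at this
  omega

section field

variable [Finite F]

theorem exists_cube_ne (h2 : Nat.card F ≠ 2) (h4 : Nat.card F ≠ 4) : ∃ x : Fˣ, x ^ 3 ≠ 1 := by
  obtain ⟨g, hg⟩ := IsCyclic.exists_generator (α := Fˣ)
  refine ⟨g, fun e => ?_⟩
  have h1 := orderOf_dvd_of_pow_eq_one e
  rw [orderOf_eq_card_of_forall_mem_zpowers hg, Nat.card_units] at h1
  have := (Nat.dvd_prime Nat.prime_three).1 h1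
  have := Finite.one_lt_card (α := F)
  omega

theorem exists_sq_ne (h4 : 4 ≤ Nat.card F) : ∃ x : Fˣ, x ^ 2 ≠ 1 := by
  obtain ⟨g, hg⟩ := IsCyclic.exists_generator (α := Fˣ)
  refine ⟨g, fun e => ?_⟩
  have h1 := orderOf_dvd_of_pow_eq_one e
  rw [orderOf_eq_card_of_forall_mem_zpowers hg, Nat.card_units] at h1
  have := Nat.le_of_dvd two_pos h1
  omega

end field

variable {E : Type v} [Group E] {π : E →* SpecialLinearGroup ι F} (hs : Function.Surjective π)
  (hc : π.ker ≤ Subgroup.center E)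

/-- A lift. -/
noncomputable def L (g : SpecialLinearGroup ι F) : E := Function.surjInv hs g

/-- The commutator of lifts. -/
noncomputable def K (a b : SpecialLinearGroup ι F) : E := ⁅L hs a, L hs b⁆

theorem map_L (g : SpecialLinearGroup ι F) : π (L hs g) = g := Function.surjInv_eq hs g

theorem map_K (a b : SpecialLinearGroup ι F) : π (K hs a b) = ⁅a, b⁆ := by
  rw [K, map_commutatorElement, map_L, map_L]

include hc

theorem central {z : E} (hz : π z = 1) (g : E) : g * z = z * g :=
  Subgroup.mem_center_iff.1 (hc (MonoidHom.mem_ker.2 hz)) g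

theorem comm_lift {X Y : E} {a b : SpecialLinearGroup ι F} (hX : π X = a) (hY : π Y = b) :
    ⁅X, Y⁆ = K hs a b := by
  obtain ⟨z, hz, rfl⟩ : ∃ z, π z = 1 ∧ X = L hs a * z :=
    ⟨(L hs a)⁻¹ * X, by rw [map_mul, map_inv, map_L, hX, inv_mul_cancel], by group⟩
  obtain ⟨z', hz', rfl⟩ : ∃ z', π z' = 1 ∧ Y = L hs b * z' :=
    ⟨(L hs b)⁻¹ * Y, by rw [map_mul, map_inv, map_L, hY, inv_mul_cancel], by group⟩
  have h1 := central hc hz
  have h2 := central hc hz'
  rw [K, commutatorElement_def, commutatorElement_def]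
  calc L hs a * z * (L hs b * z') * (L hs a * z)⁻¹ * (L hs b * z')⁻¹
      = L hs a * (z * (L hs b * z')) * z⁻¹ * ((L hs a)⁻¹ * z'⁻¹) * (L hs b)⁻¹ := by group
    _ = L hs a * (L hs b * z' * z) * z⁻¹ * ((L hs a)⁻¹ * z'⁻¹) * (L hs b)⁻¹ := by rw [← h1]
    _ = L hs a * L hs b * (z' * (L hs a)⁻¹) * z'⁻¹ * (L hs b)⁻¹ := by group
    _ = L hs a * L hs b * ((L hs a)⁻¹ * z') * z'⁻¹ * (L hs b)⁻¹ := by rw [← h2]
    _ = L hs a * L hs b * (L hs a)⁻¹ * (L hs b)⁻¹ := by group

theorem conj_K (h a b : SpecialLinearGroup ι F) :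
    L hs h * K hs a b * (L hs h)⁻¹ = K hs (h * a * h⁻¹) (h * b * h⁻¹) := by
  refine Eq.trans ?_ (comm_lift hs hc (X := L hs h * L hs a * (L hs h)⁻¹)
    (Y := L hs h * L hs b * (L hs h)⁻¹) (by simp [map_L]) (by simp [map_L]))
  simp only [K, commutatorElement_def]; group

theorem conj_K_ker {a b : SpecialLinearGroup ι F} (hab : Commute a b) (g : E) :
    g * K hs a b * g⁻¹ = K hs a b := by
  have h1 : π (K hs a b) = 1 := by rw [map_K, commutatorElement_eq_one_iff_commute.2 hab]
  rw [central hc h1 g, mul_inv_cancel_right]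

theorem K_conj_eq {a b : SpecialLinearGroup ι F} (hab : Commute a b) (h : SpecialLinearGroup ι F) :
    K hs (h * a * h⁻¹) (h * b * h⁻¹) = K hs a b := by
  rw [← conj_K hs hc, conj_K_ker hs hc hab]

theorem commute_of_K {a b : SpecialLinearGroup ι F} (h : K hs a b = 1) {X Y : E} (hX : π X = a)
    (hY : π Y = b) : Commute X Y := by
  rw [← commutatorElement_eq_one_iff_commute, comm_lift hs hc hX hY, h]

/-- A lift of an element commuting with two others commutes with the commutator of their lifts. -/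
theorem K_comm_right {a b b' : SpecialLinearGroup ι F} (h : Commute a b) (h' : Commute a b') :
    K hs a ⁅b, b'⁆ = 1 := by
  rw [← comm_lift hs hc (map_L hs a) (map_K hs b b'), commutatorElement_eq_one_iff_commute]
  refine mul_inv_eq_iff_eq_mul.1 ?_
  rw [conj_K hs hc, show a * b * a⁻¹ = b by rw [h.eq, mul_inv_cancel_right],
    show a * b' * a⁻¹ = b' by rw [h'.eq, mul_inv_cancel_right]]

theorem mul_left_K {a a' b : SpecialLinearGroup ι F} :
    K hs (a * a') b = L hs a * K hs a' b * (L hs a)⁻¹ * K hs a b := by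
  rw [← comm_lift hs hc (X := L hs a * L hs a') (by rw [map_mul, map_L, map_L]) (map_L hs b), K, K]
  simp only [commutatorElement_def]; group

theorem mul_right_K {a b b' : SpecialLinearGroup ι F} :
    K hs a (b * b') = K hs a b * (L hs b * K hs a b' * (L hs b)⁻¹) := by
  rw [← comm_lift hs hc (Y := L hs b * L hs b') (map_L hs a) (by rw [map_mul, map_L, map_L]), K, K]
  simp only [commutatorElement_def]; group

theorem K_add_left {a a' b : SpecialLinearGroup ι F} (h : Commute a' b) :
    K hs (a * a') b = K hs a' b * K hs a b := by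
  rw [mul_left_K hs hc, conj_K_ker hs hc h]

theorem K_add_right {a b b' : SpecialLinearGroup ι F} (h : Commute a b') :
    K hs a (b * b') = K hs a b * K hs a b' := by
  rw [mul_right_K hs hc, conj_K_ker hs hc h]

/-- A pairing invariant under a scaling of the left variable vanishes. -/
theorem pair_fix {G : Type v} [Group G] {B : F → F → G} (hl : ∀ t t' u, B (t + t') u = B t' u * B t u)
    {c : F} (hc' : c ≠ 1) (h : ∀ t u, B (c * t) u = B t u) (t u : F) : B t u = 1 := by
  have h1 := h (t / (c - 1)) u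
  rw [show c * (t / (c - 1)) = t + t / (c - 1) by
    field_simp [sub_ne_zero.2 hc']; ring, hl] at h1
  exact mul_eq_left.1 h1

variable [Finite F] (hn : 3 ≤ Fintype.card ι)
  (hbad : ¬(Fintype.card ι = 3 ∧ (Nat.card F = 2 ∨ Nat.card F = 4)) ∧
    ¬(Fintype.card ι = 4 ∧ Nat.card F = 2))
include hn hbad

/-- Lifts of commuting transvections commute. -/
theorem K_T {i j k l : ι} (hij : i ≠ j) (hkl : k ≠ l) (hil : i ≠ l) (hjk : j ≠ k) (t u : F) :
    K hs (T i j t) (T k l u) = 1 := by
  by_cases hm : ∃ m, m ≠ i ∧ m ≠ j ∧ m ≠ k ∧ m ≠ l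
  · obtain ⟨m, mi, mj, mk, ml⟩ := hm
    rw [show T k l u = ⁅T k m u, T m l 1⁆ by rw [T_triple (Ne.symm mk) ml hkl, mul_one]]
    exact K_comm_right hs hc (T_comm hij (Ne.symm mk) (Ne.symm mi) hjk _ _)
      (T_comm hij ml hil (Ne.symm mj) _ _)
  push Not at hm
  have hcov : (Finset.univ : Finset ι) ⊆ {i, j, k, l} := fun m _ => by
    simp only [Finset.mem_insert, Finset.mem_singleton]
    by_cases h1 : m = i
    · exact Or.inl h1
    by_cases h2 : m = j
    · exact Or.inr (Or.inl h2)
    by_cases h3 : m = k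
    · exact Or.inr (Or.inr (Or.inl h3))
    · exact Or.inr (Or.inr (Or.inr (hm m h1 h2 h3)))
  have hcard := Finset.card_le_card hcov
  rw [Finset.card_univ] at hcard
  have hB : ∀ t t' u, K hs (T i j (t + t')) (T k l u) =
      K hs (T i j t') (T k l u) * K hs (T i j t) (T k l u) := fun t t' u => by
    rw [← T_add hij, K_add_left hs hc (T_comm hij hkl hil hjk t' u)]
  have hinv : ∀ (h : SpecialLinearGroup ι F) t u t' u', h * T i j t * h⁻¹ = T i j t' →
      h * T k l u * h⁻¹ = T k l u' → K hs (T i j t') (T k l u') = K hs (T i j t) (T k l u) :=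
    fun h t u t' u' h1 h2 => by rw [← h1, ← h2, K_conj_eq hs hc (T_comm hij hkl hil hjk t u)]
  by_cases hik : i = k
  · subst hik
    by_cases hjl : j = l
    · subst hjl
      rw [Finset.insert_eq_of_mem (s := ({j, i, j} : Finset ι)) (by simp)] at hcard
      have h2 : ({j, i, j} : Finset ι).card ≤ 2 := by
        rw [Finset.insert_eq_of_mem (by simp)]; exact Finset.card_le_two
      omega
    have h3 : Fintype.card ι = 3 := by
      rw [Finset.insert_eq_of_mem (s := ({j, i, l} : Finset ι)) (by simp)] at hcard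
      have := hcard.trans Finset.card_le_three
      omega
    obtain ⟨x, hx⟩ := exists_cube_ne (F := F) (fun e => hbad.1 ⟨h3, Or.inl e⟩)
      (fun e => hbad.1 ⟨h3, Or.inr e⟩)
    have hx0 : (x : F) ≠ 0 := x.ne_zero
    refine pair_fix hc (B := fun t u => K hs (T i j t) (T i l u)) hB (c := (x : F) ^ 3)
      (fun e => hx (Units.ext (by push_cast; exact e))) (fun t u => ?_) t u
    refine hinv (Dg hij x * Dg (Ne.symm hjl) x) t u _ _ ?_ ?_
    · rw [show ∀ p q r : SpecialLinearGroup ι F, p * q * r * (p * q)⁻¹ = p * (q * r * q⁻¹) * p⁻¹ from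
        fun p q r => by group, Dg_conj _ _ hij, Dg_conj _ _ hij]
      congr 1
      simp [hij, hij.symm, hkl, hjl]
      field_simp
    · rw [show ∀ p q r : SpecialLinearGroup ι F, p * q * r * (p * q)⁻¹ = p * (q * r * q⁻¹) * p⁻¹ from
        fun p q r => by group, Dg_conj _ _ hkl, Dg_conj _ _ hkl]
      congr 1
      simp [hij, hij.symm, hkl, hkl.symm, hjl, Ne.symm hjl]
      field_simp
  by_cases hjl : j = l
  · subst hjl
    have h3 : Fintype.card ι = 3 := by
      rw [show ({i, j, k, j} : Finset ι) = {i, j, k} by ext; simp; tauto] at hcard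
      have := hcard.trans Finset.card_le_three
      omega
    obtain ⟨x, hx⟩ := exists_cube_ne (F := F) (fun e => hbad.1 ⟨h3, Or.inl e⟩)
      (fun e => hbad.1 ⟨h3, Or.inr e⟩)
    have hx0 : (x : F) ≠ 0 := x.ne_zero
    refine pair_fix hc (B := fun t u => K hs (T i j t) (T k j u)) hB (c := (x : F)⁻¹ ^ 3)
      (fun e => hx (Units.ext (by rw [inv_pow, inv_eq_one] at e; push_cast; exact e)))
      (fun t u => ?_) t u
    refine hinv (Dg (Ne.symm hik) x * Dg (Ne.symm hij) x) t u _ _ ?_ ?_
    · rw [show ∀ p q r : SpecialLinearGroup ι F, p * q * r * (p * q)⁻¹ = p * (q * r * q⁻¹) * p⁻¹ from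
        fun p q r => by group, Dg_conj _ _ hij, Dg_conj _ _ hij]
      congr 1
      simp [hij, hij.symm, hik, hjk]
      field_simp
    · rw [show ∀ p q r : SpecialLinearGroup ι F, p * q * r * (p * q)⁻¹ = p * (q * r * q⁻¹) * p⁻¹ from
        fun p q r => by group, Dg_conj _ _ hkl, Dg_conj _ _ hkl]
      congr 1
      simp [hij, hij.symm, hik, Ne.symm hik, hjk, hjk.symm]
      field_simp
  have h4 : Fintype.card ι ≤ 4 := hcard.trans Finset.card_le_four
  have h4' : Fintype.card ι = 4 := by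
    have : ({i, j, k, l} : Finset ι).card = 4 := by
      rw [Finset.card_insert_of_notMem (by simp [hij, hik, hil]),
        Finset.card_insert_of_notMem (by simp [hjk, hjl]),
        Finset.card_insert_of_notMem (by simp [hkl]), Finset.card_singleton]
    have := Finset.card_le_univ ({i, j, k, l} : Finset ι)
    omega
  by_cases hq : 4 ≤ Nat.card F
  · obtain ⟨x, hx⟩ := exists_sq_ne (F := F) hq
    have hx0 : (x : F) ≠ 0 := x.ne_zero
    refine pair_fix hc (B := fun t u => K hs (T i j t) (T k l u)) hB (c := (x : F) ^ 2)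
      (fun e => hx (Units.ext (by push_cast; exact e))) (fun t u => ?_) t u
    refine hinv (Dg hij x) t u _ _ ?_ ?_
    · rw [Dg_conj _ _ hij]
      congr 1
      simp [hij.symm]
      field_simp
    · rw [Dg_conj _ _ hkl]
      congr 1
      simp [Ne.symm hik, Ne.symm hjk, Ne.symm hil, Ne.symm hjl]
  have hq3 : Nat.card F = 3 := by
    have := Finite.one_lt_card (α := F)
    have := fun e => hbad.2 ⟨h4', e⟩
    omega
  set B := fun t u => K hs (T i j t) (T k l u) with hBdef
  have hB' : ∀ t u u', B t (u + u') = B t u * B t u' := fun t u u' => by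
    simp only [hBdef]
    rw [← T_add hkl, K_add_right hs hc (T_comm hij hkl hil hjk t u')]
  have hsym : ∀ t u, B t u = (B u t)⁻¹ := fun t u => by
    simp only [hBdef]
    rw [← K_conj_eq hs hc (T_comm hij hkl hil hjk t u) (swp i k * swp j l),
      (swp_conj hij hik hil hjk hjl hkl t).1, (swp_conj hij hik hil hjk hjl hkl u).2, K, K,
      commutatorElement_inv]
  have h0 : ∀ u, B 0 u = 1 := fun u => by
    have := hB 0 0 u
    rw [add_zero] at this
    exact left_eq_mul.1 this
  have h0' : ∀ u, B u 0 = 1 := fun u => by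
    have := hB' u 0 0
    rw [add_zero] at this
    exact left_eq_mul.1 this
  have h11 : B 1 1 = 1 := by
    have e2 : B 1 1 * B 1 1 = 1 := by nth_rw 1 [hsym]; exact inv_mul_cancel _
    haveI := Fintype.ofFinite F
    have h3 : ((3 : ℕ) : F) = 0 := by
      rw [← hq3, Nat.card_eq_fintype_card]; exact Nat.cast_card_eq_zero F
    have e3 : B 1 1 * B 1 1 * B 1 1 = 1 := by
      have h30 : (1 : F) + 1 + 1 = 0 := by push_cast at h3; linear_combination h3
      rw [← hB', ← hB', h30, h0']
    rwa [e2, one_mul] at e3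
  have hneg : ∀ t u, B (-t) u = (B t u)⁻¹ := fun t u =>
    eq_inv_of_mul_eq_one_left (by
      have e : B (t + -t) u = B (-t) u * B t u := hB t (-t) u
      rw [add_neg_cancel, h0] at e
      exact e.symm)
  have hval : ∀ t : F, t = 0 ∨ t = 1 ∨ t = -1 := fun t => by
    haveI := Fintype.ofFinite F
    by_cases ht : t = 0
    · exact Or.inl ht
    have h1 := FiniteField.pow_card_sub_one_eq_one t ht
    rw [← Nat.card_eq_fintype_card, hq3] at h1
    have : (t - 1) * (t + 1) = 0 := by linear_combination h1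
    rcases mul_eq_zero.1 this with e | e
    · exact Or.inr (Or.inl (sub_eq_zero.1 e))
    · exact Or.inr (Or.inr (eq_neg_of_add_eq_zero_left e))
  have h1u : ∀ u, B 1 u = 1 := fun u => by
    rcases hval u with rfl | rfl | rfl
    · exact h0' 1
    · exact h11
    · have e := hB' 1 (-1) 1
      rw [neg_add_cancel, h0', h11, mul_one] at e
      exact e.symm
  show B t u = 1
  rcases hval t with rfl | rfl | rfl
  · exact h0 u
  · exact h1u u
  · rw [hneg, h1u, inv_one]

/-- The commutator of lifts is a canonical lift of a transvection. -/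
theorem K_triple {i j m l : ι} (hij : i ≠ j) (hjl : j ≠ l) (hil : i ≠ l) (him : i ≠ m) (hml : m ≠ l)
    (a b : F) : K hs (T i j a) (T j l b) = K hs (T i m (a * b)) (T m l 1) := by
  have cc := fun {p q r s : ι} (h1 : p ≠ q) (h2 : r ≠ s) (h3 : p ≠ s) (h4 : q ≠ r) (t u : F)
      {X Y : E} (hX : π X = T p q t) (hY : π Y = T r s u) =>
    commute_of_K hs hc (K_T hs hc hn hbad h1 h2 h3 h4 t u) hX hY
  have himg : ∀ {p q r : ι}, p ≠ q → q ≠ r → p ≠ r → ∀ t u : F,
      π (K hs (T p q t) (T q r u)) = T p r (t * u) := fun h1 h2 h3 t u => by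
    rw [map_K, T_triple h1 h2 h3]
  have hadd : ∀ {p q r : ι}, p ≠ q → q ≠ r → p ≠ r → ∀ t t' u : F,
      K hs (T p q (t + t')) (T q r u) = K hs (T p q t) (T q r u) * K hs (T p q t') (T q r u) := by
    intro p q r h1 h2 h3 t t' u
    rw [← T_add h1, mul_left_K hs hc,
      (cc h1 h3 h3 h1.symm t (t' * u) (map_L hs _) (himg h1 h2 h3 t' u)).eq, mul_inv_cancel_right]
    exact (cc h3 h3 h3 h3.symm _ _ (himg h1 h2 h3 t' u) (himg h1 h2 h3 t u)).eq
  have hadd' : ∀ {p q r : ι}, p ≠ q → q ≠ r → p ≠ r → ∀ t u u' : F,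
      K hs (T p q t) (T q r (u + u')) = K hs (T p q t) (T q r u) * K hs (T p q t) (T q r u') := by
    intro p q r h1 h2 h3 t u u'
    rw [← T_add h2, mul_right_K hs hc,
      (cc h2 h3 h2 h3.symm u (t * u') (map_L hs _) (himg h1 h2 h3 t u')).eq, mul_inv_cancel_right]
  by_cases hn3 : Fintype.card ι = 3
  · -- only one middle index
    obtain rfl : m = j := by
      by_contra hne
      have h1 := Finset.card_le_univ ({i, j, l, m} : Finset ι)
      rw [Finset.card_insert_of_notMem (by simp [hij, hil, him]),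
        Finset.card_insert_of_notMem (by simp [hjl, Ne.symm hne]),
        Finset.card_insert_of_notMem (by simp [Ne.symm hml]), Finset.card_singleton] at h1
      omega
    set f := fun a b => K hs (T i m a) (T m l b) with hf
    obtain ⟨x, hx⟩ := exists_cube_ne (F := F) (fun e => hbad.1 ⟨hn3, Or.inl e⟩)
      (fun e => hbad.1 ⟨hn3, Or.inr e⟩)
    have hx0 : (x : F) ≠ 0 := x.ne_zero
    set D := fun a b => f a b * (f (a * b) 1)⁻¹ with hD
    have hDker : ∀ a b, π (D a b) = 1 := fun a b => by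
      simp only [hD, hf, map_mul, map_inv, himg hij hjl hil, mul_one, mul_inv_cancel]
    have hDl : ∀ a a' b, D (a + a') b = D a' b * D a b := fun a a' b => by
      simp only [hD, hf]
      rw [add_comm a a', add_mul, hadd hij hjl hil, hadd hij hjl hil, _root_.mul_inv_rev, ← mul_assoc,
        mul_assoc (K hs (T i m a') _) (K hs (T i m a) _)]
      have e1 := hDker a b
      simp only [hD, hf] at e1
      rw [mul_assoc (K hs (T i m a') _) _ (K hs (T i m (a' * b)) _)⁻¹,
        ← central hc e1 (K hs (T i m (a' * b)) (T m l 1))⁻¹, ← mul_assoc]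
    set h : SpecialLinearGroup ι F := Dg (Ne.symm hij) x * Dg (Ne.symm hil) x
    have hfc : ∀ a b, L hs h * f a b * (L hs h)⁻¹ = f ((x : F)⁻¹ ^ 3 * a) b := fun a b => by
      simp only [hf, conj_K hs hc]
      congr 1
      · simp only [h]
        rw [show ∀ p q r : SpecialLinearGroup ι F, p * q * r * (p * q)⁻¹ = p * (q * r * q⁻¹) * p⁻¹ from
          fun p q r => by group, Dg_conj _ _ hij, Dg_conj _ _ hij]
        congr 1
        simp [hij, hij.symm, hil, Ne.symm hil, hjl]
        field_simp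
      · simp only [h]
        rw [show ∀ p q r : SpecialLinearGroup ι F, p * q * r * (p * q)⁻¹ = p * (q * r * q⁻¹) * p⁻¹ from
          fun p q r => by group, Dg_conj _ _ hjl, Dg_conj _ _ hjl]
        congr 1
        simp [hij, hij.symm, hil, Ne.symm hil, hjl, hjl.symm]
        field_simp
    have hDinv : ∀ a b, D ((x : F)⁻¹ ^ 3 * a) b = D a b := fun a b => by
      have e := central hc (hDker a b) (L hs h)
      have e' : L hs h * D a b * (L hs h)⁻¹ = D ((x : F)⁻¹ ^ 3 * a) b := by
        simp only [hD]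
        rw [mul_assoc _ a b, ← hfc, ← hfc]
        group
      rw [← e', e, mul_inv_cancel_right]
    have := pair_fix hc hDl (c := (x : F)⁻¹ ^ 3)
      (fun e => hx (Units.ext (by rw [inv_pow, inv_eq_one] at e; push_cast; exact e))) hDinv a b
    exact mul_inv_eq_one.1 this
  -- at least four indices
  have h4 : 4 ≤ Fintype.card ι := by omega
  have assoc : ∀ {j m : ι}, i ≠ j → j ≠ l → i ≠ m → m ≠ l → j ≠ m → ∀ a b c : F,
      K hs (T i m (a * b)) (T m l c) = K hs (T i j a) (T j l (b * c)) := by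
    intro j m hij hjl him hml hjm a b c
    set X := L hs (T i j a)
    set Y := L hs (T j m b)
    set Z := L hs (T m l c)
    have hXm : π X = T i j a := map_L hs _
    have hP : π ⁅X, Y⁆ = T i m (a * b) := himg hij hjm him a b
    have hQ : π ⁅Y, Z⁆ = T j l (b * c) := himg hjm hml hjl b c
    have hXZ : Z * X * Z⁻¹ = X := by
      rw [← (cc hij hml hil hjm a c hXm (map_L hs _)).eq, mul_inv_cancel_right]
    have hPQ : Commute ⁅X, Y⁆ ⁅Y, Z⁆ := cc him hjl hil (Ne.symm hjm) _ _ hP hQ
    rw [← comm_lift hs hc hP (map_L hs (T m l c)), ← comm_lift hs hc hXm hQ]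
    have hQ' : π (⁅Y, Z⁆⁻¹) = T j l (-(b * c)) := by
      rw [map_inv, hQ, inv_eq_iff_mul_eq_one, T_add hjl, add_neg_cancel, T_zero hjl]
    have hneg : ⁅X, ⁅Y, Z⁆⁻¹⁆ * ⁅X, ⁅Y, Z⁆⁆ = 1 := by
      rw [comm_lift hs hc hXm hQ', comm_lift hs hc hXm hQ, ← hadd' hij hjl hil, neg_add_cancel]
      rw [K, commutatorElement_eq_one_iff_commute]
      exact (central hc (by rw [map_L, T_zero hjl]) X)
    have k2 : Z * Y * Z⁻¹ = ⁅Y, Z⁆⁻¹ * Y := by simp only [commutatorElement_def]; group
    have e1 : ⁅Z, ⁅X, Y⁆⁆ = ⁅X, ⁅Y, Z⁆⁻¹⁆ := by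
      calc ⁅Z, ⁅X, Y⁆⁆ = ⁅Z * X * Z⁻¹, Z * Y * Z⁻¹⁆ * ⁅X, Y⁆⁻¹ := by
            simp only [commutatorElement_def]; group
        _ = ⁅X, ⁅Y, Z⁆⁻¹⁆ * (⁅Y, Z⁆⁻¹ * ⁅X, Y⁆ * ⁅Y, Z⁆) * ⁅X, Y⁆⁻¹ := by
            rw [hXZ, k2]; simp only [commutatorElement_def]; group
        _ = ⁅X, ⁅Y, Z⁆⁻¹⁆ := by
            rw [mul_assoc (⁅Y, Z⁆⁻¹), hPQ.eq, inv_mul_cancel_left, mul_inv_cancel_right]
    rw [← commutatorElement_inv, e1]
    exact inv_eq_of_mul_eq_one_right hneg
  have base : ∀ {j m : ι}, i ≠ j → j ≠ l → i ≠ m → m ≠ l → j ≠ m → ∀ a b : F,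
      K hs (T i j a) (T j l b) = K hs (T i m (a * b)) (T m l 1) := fun {j m} h1 h2 h3 h4 h5 a b => by
    have e := assoc h1 h2 h3 h4 h5 a b 1
    rw [mul_one] at e
    exact e.symm
  by_cases hjm : j = m
  · subst hjm
    obtain ⟨k, ki, kj, kl⟩ := exists_ne₃ h4 i j l
    rw [base hij hjl (Ne.symm ki) kl (Ne.symm kj),
      base hij hjl (Ne.symm ki) kl (Ne.symm kj) (a * b) 1, mul_one]
  · exact base hij hjl him hml hjm a b

end CfsgLib.Schur.SLMult

namespace CfsgLib.Schur.SLMult

open Matrix Matrix.SpecialLinearGroup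
open scoped commutatorElement

universe u v w

variable {ι : Type w} [Fintype ι] [DecidableEq ι] {F : Type u} [Field F] [Finite F]
  {E : Type v} [Group E] {π : E →* SpecialLinearGroup ι F}

/-- **Central extensions of `SL_n` split.** -/
theorem exists_section (hn : 3 ≤ Fintype.card ι)
    (hbad : ¬(Fintype.card ι = 3 ∧ (Nat.card F = 2 ∨ Nat.card F = 4)) ∧
      ¬(Fintype.card ι = 4 ∧ Nat.card F = 2))
    (hs : Function.Surjective π) (hc : π.ker ≤ Subgroup.center E) :
    ∃ s : SpecialLinearGroup ι F →* E, ∀ g, π (s g) = g := by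
  classical
  choose mid hmid using fun i l : ι => exists_ne₂ hn i l
  let y : ι → ι → F → E := fun i l t => K hs (T i (mid i l) t) (T (mid i l) l 1)
  have hy : ∀ {i l : ι}, i ≠ l → ∀ t, π (y i l t) = T i l t := fun {i l} h t => by
    show π (K hs _ _) = _
    rw [map_K, T_triple (Ne.symm (hmid i l).1) (hmid i l).2 h, mul_one]
  have comm : ∀ {i j k l : ι}, i ≠ j → k ≠ l → i ≠ l → j ≠ k → ∀ t u, Commute (y i j t) (y k l u) :=
    fun {i j k l} h1 h2 h3 h4 t u =>
      commute_of_K hs hc (K_T hs hc hn hbad h1 h2 h3 h4 t u) (hy h1 t) (hy h2 u)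
  have add : ∀ {i j : ι}, i ≠ j → ∀ t u, y i j t * y i j u = y i j (t + u) := by
    intro i l h t u
    show _ = K hs (T i (mid i l) (t + u)) (T (mid i l) l 1)
    have h1 := Ne.symm (hmid i l).1
    rw [← T_add h1, mul_left_K hs hc]
    have hc1 : Commute (L hs (T i (mid i l) t)) (y i l u) :=
      commute_of_K hs hc (K_T hs hc hn hbad h1 h h h1.symm t u) (map_L hs _) (hy h u)
    show _ = L hs _ * y i l u * (L hs _)⁻¹ * y i l t
    rw [hc1.eq, mul_inv_cancel_right]
    exact (comm h h h (Ne.symm h) t u).eq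
  have triple : ∀ {i j l : ι}, i ≠ j → j ≠ l → i ≠ l → ∀ t u,
      y i j t * y j l u * (y i j t)⁻¹ * (y j l u)⁻¹ = y i l (t * u) := by
    intro i j l h1 h2 h3 t u
    rw [← commutatorElement_def, comm_lift hs hc (hy h1 t) (hy h2 u)]
    exact K_triple hs hc hn hbad h1 h2 h3 (Ne.symm (hmid i l).1) (hmid i l).2 t u
  let E₀ : Subgroup E := Subgroup.closure {g | ∃ i j t, i ≠ j ∧ g = y i j t}
  have hmem : ∀ {i j : ι}, i ≠ j → ∀ t, y i j t ∈ E₀ := fun h t =>
    Subgroup.subset_closure ⟨_, _, t, h, rfl⟩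
  let x : ι → ι → F → E₀ := fun i j t => if h : i = j then 1 else ⟨y i j t, hmem h t⟩
  have hx : ∀ {i j : ι}, i ≠ j → ∀ t, (x i j t : E) = y i j t := fun {i j} h t => by
    simp [x, h]
  let φ : E₀ →* SpecialLinearGroup ι F := π.comp E₀.subtype
  have gen : Subgroup.closure {g : E₀ | ∃ i j t, i ≠ j ∧ g = x i j t} = ⊤ := by
    apply Subgroup.map_injective E₀.subtype_injective
    rw [MonoidHom.map_closure, ← MonoidHom.range_eq_map, Subgroup.range_subtype]
    show _ = Subgroup.closure _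
    congr 1
    ext g
    constructor
    · rintro ⟨_, ⟨i, j, t, h, rfl⟩, rfl⟩
      exact ⟨i, j, t, h, hx h t⟩
    · rintro ⟨i, j, t, h, rfl⟩
      exact ⟨x i j t, ⟨i, j, t, h, rfl⟩, hx h t⟩
  have xadd : ∀ {i j : ι}, i ≠ j → ∀ t u, x i j t * x i j u = x i j (t + u) := fun h t u =>
    Subtype.ext (by rw [Subgroup.coe_mul, hx h, hx h, hx h, add h])
  have xcomm : ∀ {i j k l : ι}, i ≠ j → k ≠ l → i ≠ l → j ≠ k → ∀ t u, Commute (x i j t) (x k l u) :=
    fun h1 h2 h3 h4 t u => Subtype.ext (by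
      rw [Subgroup.coe_mul, Subgroup.coe_mul, hx h1, hx h2]; exact comm h1 h2 h3 h4 t u)
  have xtriple : ∀ {i j l : ι}, i ≠ j → j ≠ l → i ≠ l → ∀ t u,
      x i j t * x j l u * (x i j t)⁻¹ * (x j l u)⁻¹ = x i l (t * u) := fun h1 h2 h3 t u =>
    Subtype.ext (by
      push_cast
      rw [hx h1, hx h2, hx h3]; exact triple h1 h2 h3 t u)
  have S : CfsgLib.SLPres.Sys x φ := by
    refine ⟨xadd, xcomm, xtriple, fun {i j} h t u ht => ?_, gen, fun {i j} h t => ?_⟩
    · obtain ⟨k, hki, hkj⟩ := exists_ne₂ hn i j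
      exact CfsgLib.SLPres.rankOne_of_third xadd xcomm xtriple h (Ne.symm hki) (Ne.symm hkj) t u ht
    · show ((π (x i j t : E) : SpecialLinearGroup ι F) : Matrix ι ι F) = _
      rw [hx h, hy h, T, dif_neg h, transvection_coe]
      rfl
  haveI : Nontrivial ι := Fintype.one_lt_card_iff_nontrivial.1 (by omega)
  have hsurj : Function.Surjective φ := by
    rw [← MonoidHom.range_eq_top, eq_top_iff, ← CfsgLib.SLn.closure_transvections, Subgroup.closure_le]
    rintro _ ⟨i, j, h, t, rfl⟩
    refine ⟨x i j t, ?_⟩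
    show π (x i j t : E) = _
    rw [hx h, hy h, T, dif_neg h]
  let e := MulEquiv.ofBijective φ ⟨CfsgLib.SLPres.injective_of_sys _ S rfl, hsurj⟩
  exact ⟨E₀.subtype.comp e.symm.toMonoidHom, fun g => e.apply_symm_apply g⟩

/-- The multiplier of `SL_n` is trivial. -/
theorem multiplier_trivial {F : Type u} [Field F] [Finite F] {ι : Type} [Fintype ι] [DecidableEq ι]
    (hn : 3 ≤ Fintype.card ι)
    (hbad : ¬(Fintype.card ι = 3 ∧ (Nat.card F = 2 ∨ Nat.card F = 4)) ∧
      ¬(Fintype.card ι = 4 ∧ Nat.card F = 2)) :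
    Cfsg.HasCyclicSchurMultiplier (SpecialLinearGroup ι F) 1 := by
  refine hasTrivial_of fun Γ _ _ σ hσ => ?_
  obtain ⟨hs, hc, hst⟩ := hσ
  obtain ⟨s, hsec⟩ := exists_section hn hbad hs hc
  have hdec : ∀ g : Γ, ∃ z, σ z = 1 ∧ g = s (σ g) * z := fun g =>
    ⟨(s (σ g))⁻¹ * g, by rw [map_mul, map_inv, hsec, inv_mul_cancel], by group⟩
  have hcomm : commutator Γ ≤ s.range := by
    rw [commutator_def, Subgroup.commutator_le]
    intro a _ b _
    rw [comm_lift hs hc (rfl : σ a = σ a) (rfl : σ b = σ b),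
      ← comm_lift hs hc (hsec (σ a)) (hsec (σ b)), ← map_commutatorElement]
    exact ⟨_, rfl⟩
  rw [eq_bot_iff]
  intro z hz
  obtain ⟨g, rfl⟩ := hcomm (hst hz)
  rw [MonoidHom.mem_ker, hsec] at hz
  rw [hz, map_one]
  exact one_mem _

end CfsgLib.Schur.SLMult
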